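import Cfsg.Agent.Char.Lat27

/-!
# The lattice of the special classes of `3³ : S₄`, with the central characters
-/

set_option autoImplicit false

namespace Cfsg.Agent.Char.Lat

theorem search_sound' (W : ℕ → St) (R : ℕ → ℕ → ℤ) (leaf : List St → Bool) (n : ℕ) :
    ∀ (m k : ℕ), k + m = n → ∀ (cs : List (ℕ → ℤ)) (rest : Multiset (ℕ → ℤ)),
    (∀ j < n, ∀ l < n, (cs.map (fun c => c j * c l)).sum + (rest.map (fun c => c j * c l)).sum =
      R j l) → (∀ c ∈ rest, ∀ j < k, c j = 0) →
    search leaf (levels W R k m) (cs.map (st W k)) = true →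
    ∃ cs' : List (ℕ → ℤ), leaf (cs'.map (st W n)) = true ∧
      (∀ c, (c ∈ cs ∨ c ∈ rest) → c ∈ cs' ∨ -c ∈ cs' ∨ ∀ j < n, c j = 0) ∧
      ∀ c ∈ cs', c ∈ cs ∨ c ∈ rest ∨ -c ∈ rest := by
  classical
  intro m
  induction m with
  | zero =>
    rintro k rfl cs rest _ h0 h
    exact ⟨cs, h, fun c hc => hc.elim Or.inl fun hc => Or.inr (Or.inr (h0 c hc)),
      fun c hc => Or.inl hc⟩
  | succ m ih =>
    intro k hk cs rest hG h0 h
    simp only [levels, search, Bool.and_eq_true, Nat.blt_eq] at h
    obtain ⟨h9, h⟩ := h
    have hkn : k < n := by omega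
    have hr0 : 0 ≤ (rest.map (fun c => c k * c k)).sum := Multiset.sum_nonneg (by
      intro x hx
      obtain ⟨c, -, rfl⟩ := Multiset.mem_map.mp hx
      exact mul_self_nonneg _)
    have hc0 : 0 ≤ (cs.map (fun c => c k * c k)).sum := List.sum_nonneg (by
      intro x hx
      obtain ⟨c, -, rfl⟩ := List.mem_map.mp hx
      exact mul_self_nonneg _)
    obtain ⟨r, hr⟩ := Int.eq_ofNat_of_zero_le hr0
    have h1 := go_sound (W k) (cs.map (fun c => (st W k c, c k))) _ r _ _ h9 ?_ ?_
      (by simpa [Function.comp_def] using h)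
    · simp only [Bool.and_eq_true, Nat.blt_eq, List.map_map, Function.comp_def] at h1
      obtain ⟨h4, h1⟩ := h1
      have hb : ∀ c ∈ rest, c k * c k = if c k = 0 then 0 else 1 := by
        intro c hc
        have : c k * c k ≤ r := hr ▸ Multiset.single_le_sum (by
          intro x hx
          obtain ⟨c, -, rfl⟩ := Multiset.mem_map.mp hx
          exact mul_self_nonneg _) _ (Multiset.mem_map_of_mem _ hc)
        have b1 : -2 < c k := by nlinarith
        have b2 : c k < 2 := by nlinarith
        generalize c k = y at *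
        interval_cases y <;> simp
      set nz := rest.filter (fun c => ¬ c k = 0) with hnz
      have hsq : ∀ c ∈ nz, c k * c k = 1 := fun c hc => by
        rw [Multiset.mem_filter] at hc
        rw [hb c hc.1, if_neg hc.2]
      have hcard : nz.card = r := by
        rw [← Multiset.filter_add_not (fun c => c k = 0) rest, Multiset.map_add, Multiset.sum_add,
          Multiset.sum_eq_zero (by
            intro x hx
            obtain ⟨c, hc, rfl⟩ := Multiset.mem_map.mp hx
            simp [(Multiset.mem_filter.mp hc).2]), ← hnz, Multiset.map_congr rfl hsq] at hr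
        simpa using hr
      obtain ⟨cs', e1, e2, e3⟩ := ih (k + 1) (by omega) (cs ++ (nz.map (fun c => c k • c)).toList)
        (rest.filter (fun c => c k = 0)) (fun j hj l hl => by
          rw [← hG j hj l hl]
          conv_rhs => rw [← Multiset.filter_add_not (fun c => c k = 0) rest]
          rw [List.map_append, List.sum_append, Multiset.map_add, Multiset.sum_add, ← hnz,
            ← Multiset.sum_coe (List.map _ (Multiset.toList _)), ← Multiset.map_coe,
            Multiset.coe_toList, Multiset.map_map, Multiset.map_congr rfl (g := fun c => c j * c l)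
              (fun c hc => by
                simp only [Function.comp, Pi.smul_apply, smul_eq_mul]
                linear_combination c j * c l * hsq c hc)]
          ring)
        (fun c hc j hj => by
          rw [Multiset.mem_filter] at hc
          rcases Nat.lt_succ_iff_lt_or_eq.mp hj with e | rfl
          exacts [h0 c hc.1 j e, hc.2])
        (by
          rw [List.map_append]
          have e1 : List.map (st W (k + 1)) cs = cs.map (fun c => upd (st W k c) (W k) (c k)) :=
            List.map_congr_left fun c _ => by rw [upd_eq, st, st, Finset.sum_range_succ]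
          have e2 : List.map (st W (k + 1)) (nz.map (fun c => c k • c)).toList =
              List.replicate r (W k) := by
            rw [List.eq_replicate_iff]
            refine ⟨by simp [hcard], fun s hs => ?_⟩
            simp only [List.mem_map, Multiset.mem_toList, Multiset.mem_map] at hs
            obtain ⟨_, ⟨c, hc, rfl⟩, rfl⟩ := hs
            rw [st, Finset.sum_range_succ, Finset.sum_eq_zero (fun j hj => by
              simp [h0 c (Multiset.mem_filter.mp hc).1 j (Finset.mem_range.mp hj)])]
            simp [hsq c hc]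
          rw [e1, e2]
          exact h1)
      refine ⟨cs', e1, fun c hc => ?_, fun c hc => ?_⟩
      swap
      · rcases e3 c hc with e | e | e
        · rcases List.mem_append.mp e with e | e
          · exact Or.inl e
          rw [Multiset.mem_toList] at e
          obtain ⟨d, hd, rfl⟩ := Multiset.mem_map.mp e
          have := (Multiset.mem_filter.mp hd).1
          rcases mul_self_eq_one_iff.mp (hsq d hd) with e' | e' <;> simp [e', this]
        · exact Or.inr (Or.inl (Multiset.mem_filter.mp e).1)
        · exact Or.inr (Or.inr (Multiset.mem_filter.mp e).1)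
      rcases hc with hc | hc
      · exact e2 c (Or.inl (List.mem_append_left _ hc))
      by_cases e : c k = 0
      · exact e2 c (Or.inr (Multiset.mem_filter.mpr ⟨hc, e⟩))
      have hc' : c ∈ nz := Multiset.mem_filter.mpr ⟨hc, e⟩
      have := e2 (c k • c) (Or.inl (List.mem_append_right _ (by
        rw [Multiset.mem_toList]; exact Multiset.mem_map_of_mem _ hc')))
      rcases mul_self_eq_one_iff.mp (hsq c hc') with e' | e'
      · simpa [e'] using this
      · rw [e'] at this
        simp only [neg_smul, one_smul, neg_neg, Pi.neg_apply, neg_eq_zero] at this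
        tauto
    · have : ∀ l ∈ List.range k, R k l * (W l).1 = (cs.map (fun c => c k * c l)).sum * (W l).1 := by
        intro l hl
        rw [List.mem_range] at hl
        rw [← hG k hkn l (by omega), Multiset.sum_eq_zero (by
          intro x hx
          obtain ⟨c, hc, rfl⟩ := Multiset.mem_map.mp hx
          simp [h0 c hc l hl]), add_zero]
      rw [List.map_congr_left this, sum_map_range]
      simp only [List.map_map, Function.comp_def, st, Prod.fst_sum, Prod.smul_fst, smul_eq_mul]
      clear h hG hc0 this
      induction cs with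
      | nil => simp
      | cons c cs ih =>
        simp only [List.map_cons, List.sum_cons, add_mul, Finset.sum_add_distrib, ih,
          Finset.mul_sum, mul_assoc]
    · have := hG k hkn k hkn
      simp only [List.map_map, Function.comp_def]
      omega

theorem exists_leaf' {ι : Type*} (s : Finset ι) (c : ι → ℕ → ℤ) (W : ℕ → St) (R : ℕ → ℕ → ℤ)
    (leaf : List St → Bool) (n : ℕ) (hG : ∀ j < n, ∀ l < n, ∑ i ∈ s, c i j * c i l = R j l)
    (h : search leaf (levels W R 0 n) [] = true) :
    ∃ L : List St, leaf L = true ∧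
      (∀ i ∈ s, st W n (c i) ∈ L ∨ -st W n (c i) ∈ L ∨ st W n (c i) = 0) ∧
      ∀ p ∈ L, ∃ i ∈ s, p = st W n (c i) ∨ p = -st W n (c i) := by
  obtain ⟨cs, h1, h2, h3⟩ := search_sound' W R leaf n n 0 (zero_add n) [] (s.val.map c)
    (fun j hj l hl => by rw [← hG j hj l hl]; simp) (by simp) h
  refine ⟨_, h1, fun i hi => ?_, fun p hp => ?_⟩
  · rcases h2 (c i) (Or.inr (Multiset.mem_map_of_mem _ hi)) with e | e | e
    · exact Or.inl (List.mem_map_of_mem e)
    · refine Or.inr (Or.inl ?_)
      have := List.mem_map_of_mem (f := st W n) e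
      simpa [st] using this
    · exact Or.inr (Or.inr (Finset.sum_eq_zero fun j hj => by simp [e j (Finset.mem_range.mp hj)]))
  · obtain ⟨d, hd, rfl⟩ := List.mem_map.mp hp
    rcases h3 d hd with e | e | e
    · simp at e
    · obtain ⟨i, hi, rfl⟩ := Multiset.mem_map.mp e
      exact ⟨i, hi, Or.inl rfl⟩
    · obtain ⟨i, hi, e⟩ := Multiset.mem_map.mp e
      exact ⟨i, hi, Or.inr (by rw [e]; simp [st])⟩

/-- The rows excluded by the central characters. -/
def bad27 (x e w : ℤ) : Bool :=
  (x == 0 && (2 * (e + w)) % 27 != 0) || (w == 0 && (3 * e) % 27 != 0)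

/-- The test at the leaves. -/
def leaf27' (L : List St) : Bool :=
  (L.all fun p => cub 1 p.2.1 p.2.2.1 p.2.2.2 == 0) || L.any fun p => bad27 p.2.1 p.2.2.1 p.2.2.2

theorem search27' : search leaf27' (levels W27 R27 0 9) [] = true := by decide +kernel

theorem cub_one {ι : Type*} [Fintype ι] (o : ι) (V : ι → Fin 9 → ℤ)
    (hV : ∀ k l, ∑ i, V i k * V i l = if k = l then N27 k else 0) (ho : ∀ k, V o k = T27 k)
    (hd : ∀ i, ∀ j < 9, 648 ∣ ∑ k, G27 j k * V i k)
    (hx : ∀ i, V i 0 = 0 → 27 ∣ 2 * (V i 1 + V i 2)) (hw : ∀ i, V i 2 = 0 → 27 ∣ 3 * V i 1) :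
    ∀ i, cub 1 (V i 0) (V i 1) (V i 2) = 0 := by
  classical
  let c : ι → ℕ → ℤ := fun i j => (∑ k, G27 j k * V i k) / 648
  have hc : ∀ i, ∀ j < 9, 648 * c i j = ∑ k, G27 j k * V i k :=
    fun i j hj => Int.mul_ediv_cancel' (hd i j hj)
  have hco : ∀ j < 9, c o j = t27 j := fun j hj => by
    have := hc o j hj
    simp only [ho, triv27 j hj] at this
    omega
  obtain ⟨L, h1, h2, h6⟩ := exists_leaf' (Finset.univ.erase o) c W27 R27 leaf27' 9 (fun j hj l hl => by
    have h3 : 648 * 648 * ∑ i, c i j * c i l = ∑ k, G27 j k * G27 l k * N27 k := by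
      calc _ = ∑ i, (648 * c i j) * (648 * c i l) := by
            rw [Finset.mul_sum]; exact Finset.sum_congr rfl fun i _ => by ring
        _ = ∑ k, ∑ m, G27 j k * G27 l m * ∑ i, V i k * V i m := by
            simp only [hc _ j hj, hc _ l hl, Finset.sum_mul_sum]
            rw [Finset.sum_comm]
            refine Finset.sum_congr rfl fun k _ => ?_
            rw [Finset.sum_comm]
            refine Finset.sum_congr rfl fun m _ => ?_
            rw [Finset.mul_sum]
            exact Finset.sum_congr rfl fun i _ => by ring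
        _ = _ := by simp [hV]
    rw [gram27 j hj l hl, ← Finset.add_sum_erase _ _ (Finset.mem_univ o), hco j hj,
      hco l hl] at h3
    omega) search27'
  have h4 : ∀ (i : ι) (f : ℕ → ℤ) (m : Fin 9),
      (∀ k, ∑ j ∈ Finset.range 9, f j * G27 j k = if k = m then 648 else 0) →
      ∑ j ∈ Finset.range 9, c i j * f j = V i m := by
    intro i f m hf
    have : 648 * ∑ j ∈ Finset.range 9, c i j * f j = 648 * V i m := by
      calc _ = ∑ j ∈ Finset.range 9, ∑ k, f j * G27 j k * V i k := by
            rw [Finset.mul_sum]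
            refine Finset.sum_congr rfl fun j hj => ?_
            rw [← mul_assoc, hc i j (Finset.mem_range.mp hj), Finset.sum_mul]
            exact Finset.sum_congr rfl fun k _ => by ring
        _ = _ := by
            rw [Finset.sum_comm]
            simp [← Finset.sum_mul, hf]
    omega
  have h5 : ∀ i, (st W27 9 (c i)).2 = (V i 0, V i 1, V i 2) := fun i => by
    simp only [st, Prod.snd_sum, Prod.ext_iff, Prod.fst_sum, Prod.smul_snd, Prod.smul_fst,
      smul_eq_mul]
    exact ⟨h4 i _ _ fun k => (coord27 k).1, h4 i _ _ fun k => (coord27 k).2.1,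
      h4 i _ _ fun k => (coord27 k).2.2⟩
  simp only [leaf27', List.any_eq_true, List.all_eq_true, beq_iff_eq, Bool.or_eq_true] at h1
  rcases h1 with hn | ⟨p, hp, hb⟩
  swap
  · obtain ⟨i, -, e⟩ := h6 p hp
    have a1 := hx i
    have a2 := hw i
    simp only [bad27, Bool.or_eq_true, Bool.and_eq_true, beq_iff_eq, bne_iff_ne] at hb
    rcases e with rfl | rfl <;> simp only [Prod.snd_neg, h5, Prod.fst_neg] at hb <;> omega
  intro i
  by_cases hi : i = o
  · rw [hi, ho, ho, ho]
    decide
  rcases h2 i (Finset.mem_erase.mpr ⟨hi, Finset.mem_univ i⟩) with e | e | e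
  · simpa [h5] using hn _ e
  · simpa [h5, cub_neg] using hn _ e
  · have := h5 i
    rw [e] at this
    simp only [Prod.snd_zero, Prod.ext_iff, Prod.fst_zero] at this
    rw [← this.1, ← this.2.1, ← this.2.2]
    decide

theorem cube27' {ι : Type*} [Fintype ι] {X E W : ι → ℤ}
    (h : ∀ i, cub 1 (X i) (E i) (W i) = 0) (r : ι → ℂ)
    (h1 : ∑ i, X i * X i * E i * r i = 23328) (h3 : ∑ i, X i * E i * E i * r i = 11664)
    (h6 : ∑ i, E i * E i * W i * r i = 17496) : ∑ i, E i * E i * E i * r i = 14580 := by
  have h0 : ∑ i, (cub 1 (X i) (E i) (W i) : ℂ) * r i = 0 := by simp [h]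
  simp only [cub] at h0
  push_cast at h0
  simp only [sub_mul, add_mul, mul_assoc _ _ (r _), Finset.sum_add_distrib,
      Finset.sum_sub_distrib, ← Finset.mul_sum] at h0 h1 h3 h6 ⊢
  linear_combination (h0 + 3 * h1 + 5 * h3 - 4 * h6) / 4

end Cfsg.Agent.Char.Lat
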