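import Cfsg.Agent.Char.A9Mod

/-!
# A model of the subgroups of `S₃ ≀ S₃` containing `3 ≀ S₃`
-/

set_option autoImplicit false
set_option synthInstance.maxSize 4096

namespace Cfsg.Agent.Char.B3

open A9 (ad sg prm av cls3)

/-- Monomial matrices: rotation, reflection and three signs. -/
abbrev I48 : Type := ZMod 3 × Bool × Bool × Bool × Bool

/-- The affine maps. -/
abbrev X : Type := I48 × V27

/-- The linear action. -/
def act : I48 → V27 → V27
  | (ρ, ε, s, t, u), v => match prm ρ ε v with
    | (a, b, c) => (sg s a, sg t b, sg u c)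

/-- The product of monomial matrices. -/
def mi : I48 → I48 → I48
  | (ρ, ε, s, t, u), (ρ', ε', s', t', u') => match prm ρ ε (s', t', u') with
    | (p, q, w) => (ad ρ (sg ε ρ'), ε ^^ ε', s ^^ p, t ^^ q, u ^^ w)

/-- The product of affine maps. -/
def mx : X → X → X
  | (i, v), (k, w) => (mi i k, av v (act i w))

/-- The identity matrix. -/
def i0 : I48 := (0, false, false, false, false)

/-- Powers. -/
def pw (x : X) : ℕ → X
  | 0 => (i0, 0)
  | n + 1 => mx (pw x n) x

/-- The matrices which occur. -/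
def ok (δ m : Bool) : I48 → Bool
  | (_, _, s, t, u) => (δ || (s == t && t == u)) && (m || !(s ^^ t ^^ u))

/-- The vectors conjugate to the diagonal vector or its negative. -/
def xt (δ : Bool) (v : V27) : Bool :=
  bif δ then cls3 v == 3 else v == (1, 1, 1) || v == (2, 2, 2)

def tI : I48 := (0, true, false, false, false)
def yI : I48 := (1, false, false, false, false)
def rI : I48 := (0, false, false, false, true)
def dI : I48 := (0, false, true, true, false)
def nI : I48 := (0, false, true, true, true)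
def sI : I48 := (0, true, true, true, true)

theorem ok_perm (δ m : Bool) (ρ : ZMod 3) (ε : Bool) : ok δ m (ρ, ε, false, false, false) = true := by
  cases δ <;> cases m <;> rfl

theorem ok0 {δ m : Bool} : ok δ m i0 = true := ok_perm ..
theorem okt {δ m : Bool} : ok δ m tI = true := ok_perm ..
theorem oky {δ m : Bool} : ok δ m yI = true := ok_perm ..

theorem ok_mi : ∀ δ m i k, ok δ m i → ok δ m k → ok δ m (mi i k) := by decide +kernel

theorem mx_j : ∀ i v, mx (i, 0) (i0, v) = mx (i0, act i v) (i, 0) := by decide +kernel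

theorem mx_jj : ∀ u v, mx (i0, u) (i0, v) = (i0, u + v) := by decide +kernel

theorem mx_ji : ∀ i v, mx (i0, v) (i, 0) = (i, v) := by decide +kernel

theorem cls3_act : ∀ i v, cls3 (act i v) = cls3 v := by decide +kernel

theorem act_faith : ∀ i, act i (1, 0, 0) = (1, 0, 0) → act i (0, 1, 0) = (0, 1, 0) →
    act i (0, 0, 1) = (0, 0, 1) → i = i0 := by decide +kernel

theorem exp36 : ∀ y, pw y 36 = (i0, 0) := by decide +kernel

theorem cent_cnt : ∀ y, pw y 3 = (i0, 0) → y.1 ≠ i0 → (Finset.univ.filter
    (fun z => mx z y = mx y z ∧ pw z 3 = (i0, 0))).card ≤ 9 := by decide +kernel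

theorem xt_act : ∀ δ m v, xt δ v → ∃ i, ok δ m i ∧
    (act i (1, 1, 1) = v ∨ -act i (1, 1, 1) = v) := by decide +kernel

theorem fix_xt : ∀ δ m y, ok δ m y.1 → pw y 3 = (i0, 0) → y.1 ≠ i0 →
    (∃ w, xt δ w ∧ act y.1 w = w) ∧ (∀ v, v ≠ 0 → act y.1 v = v → xt δ v) ∧
    ∃ z : X, ok δ m z.1 ∧ mx z y = mx (pw y 2) z := by decide +kernel

theorem x_nonreal : ∀ δ i, ok δ false i → act i (1, 1, 1) ≠ -(1, 1, 1) := by decide +kernel

end Cfsg.Agent.Char.B3
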