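import Cfsg.Agent.Char.Nine

/-!
# Groups with a strongly closed subgroup of order nine with normaliser `S₃ × S₃`
-/

set_option autoImplicit false

namespace Cfsg.Agent.Char

open scoped ComplexConjugate
open Subgroup

variable {G : Type*} [Group G]

/-- Three classes of elements of order three. -/
def clsS (v : V9) : Fin 4 := if v = 0 then 0 else if v.2 = 0 then 1 else if v.1 = 0 then 2 else 3

/-- Representatives of the three classes. -/
def repS : Fin 3 → V9 := ![(1, 0), (0, 1), (1, 1)]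

variable {S H : Subgroup G} {e : V9 → G}

theorem ss_values {χ : G → ℂ} (hχ : IsCharacter G χ) (hp : Param S e)
    (hcls : ∀ u v, IsConj (e u) (e v) ↔ clsS u = clsS v) :
    ∃ m0 m1 m2 m3 : ℕ, χ 1 = m0 + 2 * m1 + 2 * m2 + 4 * m3 ∧
      χ (e (1, 0)) = m0 - m1 + 2 * m2 - 2 * m3 ∧ χ (e (0, 1)) = m0 + 2 * m1 - m2 - 2 * m3 ∧
      χ (e (1, 1)) = m0 - m1 - m2 + m3 := by
  obtain ⟨m0, h0⟩ := char_param_mult hχ e hp.add (fun _ => omz 0) (fun _ _ => by simp [omz_zero])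
  obtain ⟨m1, h1⟩ := char_param_mult hχ e hp.add (fun v => omz v.1) (fun _ _ => omz_add _ _)
  obtain ⟨m2, h2⟩ := char_param_mult hχ e hp.add (fun v => omz v.2) (fun _ _ => omz_add _ _)
  obtain ⟨m3, h3⟩ := char_param_mult hχ e hp.add (fun v => omz (v.1 + v.2)) (fun _ _ => by
    rw [← omz_add]; congr 1; simp only [Prod.fst_add, Prod.snd_add]; ring)
  have c : ∀ u v, clsS u = clsS v → χ (e u) = χ (e v) :=
    fun u v h => classFun_of_isConj (char_isClassFunction hχ) ((hcls u v).mpr h)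
  have c0 : e (0, 0) = 1 := hp.zero
  have k1 : (1 + 1 : ZMod 3) = 2 := rfl
  have k2 : (1 + 2 : ZMod 3) = 0 := rfl
  have k3 : (2 + 1 : ZMod 3) = 0 := rfl
  have k4 : (2 + 2 : ZMod 3) = 1 := rfl
  have k5 : (Fintype.card V9 : ℂ) = 9 := by simp
  simp only [sum_V9, c0, c (0, 2) (0, 1) rfl, c (2, 0) (1, 0) rfl, c (1, 2) (1, 1) rfl,
    c (2, 1) (1, 1) rfl, c (2, 2) (1, 1) rfl, zero_add, add_zero, k1, k2, k3,
    k4, k5, omz_zero, omz_one, omz_two] at h0 h1 h2 h3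
  refine ⟨m0, m1, m2, m3, ?_, ?_, ?_, ?_⟩
  · linear_combination (h0 + 2 * h1 + 2 * h2 + 4 * h3) / 9
  · linear_combination (h0 - h1 + 2 * h2 - 2 * h3) / 9
  · linear_combination (h0 + 2 * h1 - h2 - 2 * h3) / 9
  · linear_combination (h0 - h1 - h2 + h3) / 9

theorem ss_ineq_aux : ∀ a ∈ Finset.Icc (-4 : ℤ) 4, ∀ b ∈ Finset.Icc (-4 : ℤ) 4,
    ∀ c ∈ Finset.Icc (-3 : ℤ) 3, ∀ m ∈ Finset.Icc (0 : ℤ) 4,
    (a - c) % 3 = 0 → (b - c) % 3 = 0 → a + b + c ≤ 3 * m → a + 2 * c ≤ 3 * m → b + 2 * c ≤ 3 * m →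
    0 ≤ 3 * (a * a + b * b) + 6 * (c * c) + 6 * (a * b) + 5 * (a * c + b * c) ∧
    0 ≤ 20 * (a * b * a + b * a * b) + 26 * (a * c * a + b * c * b) + 64 * (a * b * c) +
      34 * (c * a * c + c * b * c) + (9 * m - 2 * a - 2 * b - 4 * c) *
      (3 * (a * a + b * b) + 6 * (c * c) + 6 * (a * b) + 5 * (a * c + b * c)) := by
  decide +kernel

theorem card_le_352 [Finite G] (h : SC3 S H) (hp : Param S e)
    (hcls : ∀ u v, IsConj (e u) (e v) ↔ clsS u = clsS v)
    (hC : ∀ i, Nat.card (centralizer ({e (repS i)} : Set G)) = if i = 2 then 9 else 18) :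
    Nat.card G ≤ 352 := by
  classical
  have := Fintype.ofFinite G
  have hv := fun χ : IrrCharacter G => ss_values (irr_isCharacter χ.2) hp hcls
  choose m0 m1 m2 m3 hm using hv
  set d : IrrCharacter G → ℕ := fun χ => m0 χ + 2 * m1 χ + 2 * m2 χ + 4 * m3 χ with hd
  set v : Fin 3 → IrrCharacter G → ℤ := fun i χ => ![(m0 χ : ℤ) - m1 χ + 2 * m2 χ - 2 * m3 χ,
    m0 χ + 2 * m1 χ - m2 χ - 2 * m3 χ, m0 χ - m1 χ - m2 χ + m3 χ] i with hv
  have e1 : ∀ χ : IrrCharacter G, (χ : G → ℂ) 1 = d χ := fun χ => by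
    rw [(hm χ).1]; simp [hd]
  have e2 : ∀ i, ∀ χ : IrrCharacter G, (χ : G → ℂ) (e (repS i)) = v i χ := fun i χ => by
    fin_cases i
    · exact (hm χ).2.1.trans (by simp [hv])
    · exact (hm χ).2.2.1.trans (by simp [hv])
    · exact (hm χ).2.2.2.trans (by simp [hv])
  have hd0 : ∀ χ, 0 < d χ := fun χ => by
    have := irr_one_ne_zero χ.2
    rw [e1] at this
    exact Nat.pos_of_ne_zero (by exact_mod_cast this)
  have hinj : ∀ i j, clsS (repS i) = clsS (repS j) ↔ i = j := by decide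
  have o1 : ∀ i, ∑ χ, v i χ ^ 2 = if i = 2 then 9 else 18 := fun i => by
    have := sum_irr_mul_conj (e (repS i)) (e (repS i))
    simp only [e2, IsConj.refl, if_true, hC, map_intCast, ← sq] at this
    exact_mod_cast this
  have o2 : ∀ i j, i ≠ j → ∑ χ, (v i χ : ℚ) * v j χ = 0 := fun i j hij => by
    have := sum_irr_mul_conj (e (repS j)) (e (repS i))
    simp only [e2, hcls, hinj, hij.symm, if_false, map_intCast] at this
    exact_mod_cast this
  have hg : (0 : ℚ) < Nat.card G := by exact_mod_cast Nat.card_pos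
  have o3 : ∀ i j k (n : ℕ), i ≠ j → (Finset.univ.filter (fun v => clsS (repS i) = clsS v ∧
      clsS (repS k) = clsS (v + repS j))).card * ((if i = 2 then 9 else 18) *
        (if k = 2 then 9 else 18)) = n →
      ∑ χ, (v i χ : ℚ) * v j χ * v k χ / d χ = n / Nat.card G := fun i j k n hij hn => by
    have := h.classMul hp V9_three hcls (x := repS i) (y := repS j) (repS k)
      ((by decide : ∀ j, repS j ≠ 0) j) (by rwa [Ne, hinj])
    rw [hC, hC, ← Nat.cast_mul, ← Nat.cast_mul, hn] at this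
    simp only [e1, e2, map_intCast] at this
    rw [eq_div_iff hg.ne', mul_comm]
    exact_mod_cast this.symm
  let f : IrrCharacter G → ℚ := fun χ =>
    20 * ((v 0 χ : ℚ) * v 1 χ * v 0 χ / d χ + v 1 χ * v 0 χ * v 1 χ / d χ) +
    26 * ((v 0 χ : ℚ) * v 2 χ * v 0 χ / d χ + v 1 χ * v 2 χ * v 1 χ / d χ) +
    64 * ((v 0 χ : ℚ) * v 1 χ * v 2 χ / d χ) +
    34 * ((v 2 χ : ℚ) * v 0 χ * v 2 χ / d χ + v 2 χ * v 1 χ * v 2 χ / d χ) +
    (3 * ((v 0 χ : ℚ) ^ 2 + v 1 χ ^ 2) + 6 * v 2 χ ^ 2 + 6 * (v 0 χ * v 1 χ) +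
      5 * (v 0 χ * v 2 χ + v 1 χ * v 2 χ))
  have hf : ∀ χ, 0 ≤ f χ := by
    intro χ
    have b0 := abs_le_of_sum_sq (v 0) (k := 4) (o1 0) (by decide) (by norm_num) χ
    have b1 := abs_le_of_sum_sq (v 1) (k := 4) (o1 1) (by decide) (by norm_num) χ
    have b2 := abs_le_of_sum_sq (v 2) (k := 3) (o1 2) (by norm_num) (by norm_num) χ
    have c0 : v 0 χ = (m0 χ : ℤ) - m1 χ + 2 * m2 χ - 2 * m3 χ := rfl
    have c1 : v 1 χ = (m0 χ : ℤ) + 2 * m1 χ - m2 χ - 2 * m3 χ := rfl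
    have c2 : v 2 χ = (m0 χ : ℤ) - m1 χ - m2 χ + m3 χ := rfl
    have c3 : (d χ : ℤ) = m0 χ + 2 * m1 χ + 2 * m2 χ + 4 * m3 χ := by simp [hd]
    obtain ⟨k1, k2⟩ := ss_ineq_aux _ (Finset.mem_Icc.mpr b0) _ (Finset.mem_Icc.mpr b1) _
      (Finset.mem_Icc.mpr b2) (min (m0 χ : ℤ) 4) (Finset.mem_Icc.mpr (by omega)) (by omega)
      (by omega) (by omega) (by omega) (by omega)
    have k3 := mul_le_mul_of_nonneg_right (show 9 * min (m0 χ : ℤ) 4 - 2 * v 0 χ - 2 * v 1 χ -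
      4 * v 2 χ ≤ d χ by omega) k1
    have key := k2.trans (add_le_add_right k3 _)
    have hd' : (0 : ℚ) < d χ := by exact_mod_cast hd0 χ
    have key' := div_nonneg (Int.cast_nonneg (R := ℚ) key) hd'.le
    refine key'.trans_eq ?_
    simp only [f]
    push_cast
    field_simp
  have h7 := Finset.single_le_sum (f := f) (fun χ _ => hf χ) (Finset.mem_univ ⟨1, irr_one⟩)
  have t1 : d ⟨1, irr_one⟩ = 1 := by
    have := e1 ⟨1, irr_one⟩
    simp only [Pi.one_apply] at this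
    exact_mod_cast this.symm
  have t2 : ∀ i, v i ⟨1, irr_one⟩ = 1 := fun i => by
    have := e2 i ⟨1, irr_one⟩
    simp only [Pi.one_apply] at this
    exact_mod_cast this.symm
  have o1' : ∀ i, ∑ χ, (v i χ : ℚ) ^ 2 = if i = 2 then 9 else 18 := fun i => by
    exact_mod_cast o1 i
  simp only [f, t1, t2, Finset.sum_add_distrib, ← Finset.mul_sum, o1'] at h7
  rw [o2 0 1 (by decide), o2 0 2 (by decide), o2 1 2 (by decide), o3 0 1 0 0 (by decide) (by decide),
    o3 1 0 1 0 (by decide) (by decide), o3 0 2 0 0 (by decide) (by decide),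
    o3 1 2 1 0 (by decide) (by decide), o3 0 1 2 324 (by decide) (by decide),
    o3 2 0 2 162 (by decide) (by decide), o3 2 1 2 162 (by decide) (by decide)] at h7
  have h8 : (Nat.card G : ℚ) < 353 := by
    by_contra hc
    have : (162 : ℚ) / Nat.card G ≤ 162 / 353 := by
      apply div_le_div_of_nonneg_left <;> linarith
    have h9 : (324 : ℚ) / Nat.card G = 2 * (162 / Nat.card G) := by ring
    simp only [Fin.reduceEq, if_false, if_true] at h7
    norm_num [-Nat.card_eq_fintype_card] at h7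
    linarith
  have : Nat.card G < 353 := by exact_mod_cast h8
  omega

end Cfsg.Agent.Char
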