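import Mathlib.GroupTheory.SpecificGroups.Alternating.Simple
import Mathlib.GroupTheory.GroupAction.SubMulAction.Combination
import Mathlib.GroupTheory.Sylow

/-!
# Extensions of `Alt(9)`
-/

set_option autoImplicit false

namespace Cfsg.Agent.Char

open Subgroup MulAction Equiv
open scoped Pointwise

local notation "𝔸" => alternatingGroup (Fin 9)

theorem a9_index_stab (i : Fin 9) : (stabilizer 𝔸 i).index = 9 := by
  have := alternatingGroup.isPretransitive_of_three_le_card (Fin 9) (by simp)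
  rw [index_stabilizer_of_transitive]
  simp

theorem a9_card : Nat.card 𝔸 = 181440 := by
  have := nat_card_alternatingGroup (α := Fin 9)
  rw [show Nat.card (Fin 9) = 9 by simp, show Nat.factorial 9 = 362880 by rfl] at this
  omega

theorem a9_elts : ∀ i : Fin 9, ∃ c u : Perm (Fin 9), c i = i ∧ c ^ 3 = 1 ∧ c ≠ 1 ∧ u ^ 5 = 1 ∧
    u ≠ 1 ∧ c * u = u * c := fun i =>
  ⟨swap i 8 * (swap 0 1 * swap 1 2) * swap i 8,
    swap i 8 * (swap 3 4 * swap 4 5 * swap 5 6 * swap 6 7) * swap i 8, by revert i; decide +kernel⟩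

theorem a9_sep : ∀ i i' : Fin 9, i ≠ i' → ∃ j k : Fin 9, i' ≠ j ∧ i' ≠ k ∧ j ≠ k ∧
    (swap i' j * swap i' k) i = i ∧ (swap i' j * swap i' k) i' ≠ i' := by
  decide +kernel

theorem a9_stab_inj : Function.Injective fun i : Fin 9 => stabilizer 𝔸 i := by
  intro i i' h
  by_contra hne
  obtain ⟨j, k, h1, h2, h3, h4, h5⟩ := a9_sep i i' hne
  have h6 : (⟨_, (Perm.isThreeCycle_swap_mul_swap_same h1 h2 h3).mem_alternatingGroup⟩ : 𝔸) ∈
      stabilizer 𝔸 i := h4
  simp only at h
  rw [h] at h6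
  exact h5 h6

theorem s9_fix {c u : Perm (Fin 9)} (c3 : c ^ 3 = 1) (u5 : u ^ 5 = 1) (u1 : u ≠ 1)
    (e : c * u = u * c) : ∃ i, c i = i := by
  have : Fact (Nat.Prime 5) := ⟨Nat.prime_five⟩
  have : Fact (Nat.Prime 3) := ⟨Nat.prime_three⟩
  have h1 := Perm.card_compl_support_modEq (p := 5) (n := 1) (σ := u) u5
  have h2 := Finset.card_compl u.support
  have h3 := Finset.card_pos.mpr (Finset.nonempty_iff_ne_empty.mpr (mt Perm.support_eq_empty_iff.mp u1))
  have h4 : ∀ x, c x ∈ u.supportᶜ ↔ x ∈ u.supportᶜ := fun x => by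
    rw [Finset.mem_compl, Finset.mem_compl, Perm.notMem_support, Perm.notMem_support,
      ← Perm.mul_apply, ← e, Perm.mul_apply, c.injective.eq_iff]
  obtain ⟨i, hi⟩ := Perm.exists_fixed_point_of_prime (p := 3) (n := 1) (σ := c.subtypePerm h4)
    (by rw [Fintype.card_coe]; simp only [Fintype.card_fin, Nat.ModEq] at h1 h2; omega)
    (by rw [Perm.subtypePerm_pow]; ext; simp [c3])
  exact ⟨i, congrArg Subtype.val hi⟩

theorem a9_stab (L : Subgroup 𝔸) (hL : L.index = 9) {c : 𝔸} (hc : c ∈ L) (c3 : orderOf c = 3)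
    {i : Fin 9} (hi : c.1 i = i) : ∃ i : Fin 9, L = stabilizer 𝔸 i := by
  classical
  have key : ∀ j, L ≤ stabilizer 𝔸 j → ∃ i : Fin 9, L = stabilizer 𝔸 i := fun j h =>
    ⟨j, le_antisymm h (relIndex_eq_one.mp (by
      have := relIndex_mul_index h
      rw [hL, a9_index_stab] at this
      omega))⟩
  set O := (orbit L i).toFinset with hO
  have hm : ∀ g ∈ L, g • orbit L i = orbit L i := fun g hg => smul_orbit (⟨g, hg⟩ : L) i
  have hx : ∀ g ∈ L, ∀ x, g • x ∈ O ↔ x ∈ O := fun g hg x => by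
    rw [Set.mem_toFinset, Set.mem_toFinset, ← Set.smul_mem_smul_set_iff (a := g) (x := x), hm g hg]
  have := Set.powersetCard.isPretransitive_alternatingGroup (α := Fin 9) (n := O.card) (by simp)
  have h1 := index_stabilizer_of_transitive 𝔸 (Set.powersetCard.ofCard (s := O) rfl)
  have h2 := index_dvd_of_le (show L ≤ stabilizer 𝔸 (Set.powersetCard.ofCard (s := O) rfl) by
    intro g hg
    exact Subtype.ext (Finset.ext fun x => Finset.inv_smul_mem_iff.symm.trans (hx _ (inv_mem hg) x)))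
  rw [h1, Set.powersetCard.card, hL, Nat.card_eq_fintype_card, Fintype.card_fin] at h2
  have iO : i ∈ O := Set.mem_toFinset.mpr (mem_orbit_self i)
  have h3 := Finset.card_pos.mpr ⟨i, iO⟩
  have h4 := Finset.card_compl O
  rw [Fintype.card_fin] at h4
  obtain e | e | e : O.card = 1 ∨ Oᶜ.card = 1 ∨ O.card = 9 := by
    have h5 : O.card ≤ 9 := O.card_le_univ
    rw [h4]
    exact (by decide : ∀ n ≤ 9, Nat.choose 9 n ∣ 9 → 0 < n → n = 1 ∨ 9 - n = 1 ∨ n = 9) _ h5 h2 h3
  · exact key i fun g hg => Finset.card_le_one.mp e.le _ ((hx g hg i).mpr iO) _ iO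
  · obtain ⟨j, hj⟩ := Finset.card_pos.mp (e.symm ▸ one_pos)
    exact key j fun g hg => Finset.card_le_one.mp e.le _
      (Finset.mem_compl.mpr ((hx g hg j).not.mpr (Finset.mem_compl.mp hj))) _ hj
  have h5 := (stabilizer L i).card_mul_index
  have h6 := L.card_mul_index
  have h7 := orderOf_dvd_natCard (⟨⟨c, hc⟩, hi⟩ : stabilizer L i)
  rw [← orderOf_coe, ← orderOf_coe, c3] at h7
  rw [index_stabilizer, Set.ncard_eq_toFinset_card', e] at h5
  rw [hL, a9_card] at h6
  omega

variable {G : Type*} [Group G]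

/-- A group with a self-centralising normal subgroup `Alt(9)` embeds in `Sym(9)`. -/
theorem exists_hom_sym9 (K : Subgroup G) [hK : K.Normal] (ι : K ≃* 𝔸)
    (hC : ∀ g, (∀ k ∈ K, g * k = k * g) → g = 1) :
    ∃ f : G →* Perm (Fin 9), Function.Injective f := by
  let α : G →* MulAut 𝔸 := (MulAut.congr ι).toMonoidHom.comp MulAut.conjNormal
  have hα : ∀ g x, α g (ι x) = ι (MulAut.conjNormal g x) := fun g x => by simp [α]
  have hex : ∀ (g : G) (i : Fin 9), ∃ j : Fin 9,
      (stabilizer 𝔸 i).map (α g).toMonoidHom = stabilizer 𝔸 j := by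
    intro g i
    obtain ⟨c, u, h1, h2, h3, h4, h5, h6⟩ := a9_elts i
    have sg : ∀ {σ : Perm (Fin 9)} {n : ℕ}, Odd n → σ ^ n = 1 → σ ∈ 𝔸 := fun {σ n} hn e => by
      have := congrArg Perm.sign e
      rw [map_pow, map_one] at this
      rcases Int.units_eq_one_or (Perm.sign σ) with e' | e'
      · exact e'
      · rw [e', hn.neg_one_pow] at this
        exact absurd this (by decide)
    have cA := sg (by decide) h2
    have uA := sg (by decide) h4
    have : Fact (Nat.Prime 3) := ⟨Nat.prime_three⟩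
    have c3 : orderOf (α g ⟨c, cA⟩) = 3 := by
      rw [MulEquiv.orderOf_eq]
      exact orderOf_eq_prime (Subtype.ext h2) fun e => h3 (congrArg Subtype.val e)
    obtain ⟨j, hj⟩ := s9_fix (c := (α g ⟨c, cA⟩).1) (u := (α g ⟨u, uA⟩).1)
      (congrArg Subtype.val (c3 ▸ pow_orderOf_eq_one (α g ⟨c, cA⟩)))
      (congrArg Subtype.val ((map_pow (α g) _ 5).symm.trans
        ((map_eq_one_iff _ (α g).injective).mpr (Subtype.ext h4))))
      (fun e => h5 (congrArg Subtype.val ((map_eq_one_iff _ (α g).injective).mp (Subtype.ext e))))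
      (by rw [← coe_mul, ← coe_mul, ← map_mul, ← map_mul]; exact congrArg (fun a => (α g a).1) (Subtype.ext h6))
    exact a9_stab _ (by rw [index_map_of_bijective (α g).bijective, a9_index_stab]) ⟨_, h1, rfl⟩ c3 hj
  choose π hπ using hex
  let act : MulAction G (Fin 9) :=
    { smul := π
      one_smul := fun i => a9_stab_inj (by
        change stabilizer _ (π 1 i) = _
        rw [← hπ, map_one]
        exact map_id _)
      mul_smul := fun g h i => a9_stab_inj (by
        change stabilizer _ (π (g * h) i) = stabilizer _ (π g (π h i))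
        rw [← hπ, ← hπ, ← hπ, map_map, map_mul]
        rfl) }
  refine ⟨toPermHom G (Fin 9), ?_⟩
  set f := toPermHom G (Fin 9) with hf
  have hs : IsSimpleGroup 𝔸 := alternatingGroup.isSimpleGroup (by simp)
  have hs' : IsSimpleGroup K := ι.isSimpleGroup
  have h1 : f.ker.subgroupOf K = ⊥ := by
    refine (inferInstance : (f.ker.subgroupOf K).Normal).eq_bot_or_eq_top.resolve_right fun h => ?_
    have h2 : (stabilizer 𝔸 (0 : Fin 9)).Normal := by
      refine ⟨fun n hn y => ?_⟩
      obtain ⟨x, rfl⟩ := ι.surjective y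
      obtain ⟨m, rfl⟩ := ι.surjective n
      have h4 : x ∈ f.ker.subgroupOf K := h ▸ mem_top x
      have h5 : π x 0 = 0 := congrArg (fun p : Perm (Fin 9) => p 0) h4
      have h6 := hπ x 0
      rw [h5] at h6
      rw [← h6]
      refine ⟨ι m, hn, ?_⟩
      change α x (ι m) = _
      rw [hα, ← map_inv, ← map_mul, ← map_mul]
      rfl
    have h4 := a9_index_stab 0
    rcases h2.eq_bot_or_eq_top with h5 | h5 <;> rw [h5] at h4
    · rw [index_bot, a9_card] at h4; omega
    · rw [index_top] at h4; omega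
  rw [injective_iff_map_eq_one]
  exact fun g hg => hC g fun k hk => (commute_of_normal_of_disjoint _ _ inferInstance hK
    (subgroupOf_eq_bot.mp h1) g k hg hk).eq

theorem equiv_sym9 (K : Subgroup G) [hK : K.Normal] (ι : K ≃* 𝔸)
    (hC : ∀ g, (∀ k ∈ K, g * k = k * g) → g = 1) (h2 : 2 * Nat.card K = Nat.card G) :
    Nonempty (G ≃* Perm (Fin 9)) := by
  obtain ⟨f, hf⟩ := exists_hom_sym9 K ι hC
  rw [Nat.card_congr ι.toEquiv, a9_card] at h2
  exact ⟨MulEquiv.ofBijective f (hf.bijective_of_nat_card_le (by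
    rw [← h2, Nat.card_perm]; simp [Nat.factorial]))⟩

end Cfsg.Agent.Char
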