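import Cfsg.Agent.Char.A9Mod

/-!
# The transfer of an involution
-/

set_option autoImplicit false

namespace Cfsg.Agent.Char

open Subgroup

variable {G : Type*} [Group G] [Finite G] {U : Subgroup G} {A : Type*} [CommGroup A]

theorem transfer_inv_odd (φ : U →* A) {s : G} (hs : s * s = 1) {a : A} (ha : a * a = 1)
    (h : ∀ g (hg : g⁻¹ * s * g ∈ U), φ ⟨_, hg⟩ = a) (hodd : U.index % 2 = 1) :
    MonoidHom.transfer φ s = a := by
  classical
  have := Fintype.ofFinite (Quotient (MulAction.orbitRel (zpowers s) (G ⧸ U)))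
  have h1 : a ^ U.index = a := by
    rw [pow_eq_pow_mod _ (show a ^ 2 = 1 by rw [pow_two, ha]), hodd, pow_one]
  rw [MonoidHom.transfer_eq_prod_quotient_orbitRel_zpowers_quot, ← h1,
    index_eq_sum_minimalPeriod U s, ← Finset.prod_pow_eq_pow_sum]
  refine Finset.prod_congr rfl fun q _ => ?_
  suffices H' : ∀ n (g : G) (h5 : g⁻¹ * s ^ n * g ∈ U), φ ⟨_, h5⟩ = a ^ n from H' _ _ _
  intro n g h5
  have h2 := pow_eq_pow_mod n (show s ^ 2 = 1 by rw [pow_two, hs])
  rw [pow_eq_pow_mod _ (show a ^ 2 = 1 by rw [pow_two, ha])]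
  rcases Nat.mod_two_eq_zero_or_one n with e | e <;> rw [e] at h2 ⊢
  · rw [pow_zero, ← map_one φ]
    exact congrArg φ (Subtype.ext (by simp [h2]))
  · rw [pow_one] at h2 ⊢
    rw [← h g (h2 ▸ h5)]
    exact congrArg φ (Subtype.ext (by simp [h2]))

theorem exists_transfer_cent (φ : U →* A) {s : G} (hs : s * s = 1) (sU : s ∈ U)
    (hU : U ≤ centralizer {s}) (hodd : U.relIndex (centralizer {s}) % 2 = 1)
    (h : ∀ g (hg : g⁻¹ * s * g ∈ U), φ ⟨_, hg⟩ = 1 ∨ g⁻¹ * s * g = s) :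
    ∃ V : G →* A, V s = φ ⟨s, sU⟩ := by
  classical
  have := Fintype.ofFinite (G ⧸ U)
  have mem : ∀ (g : G) (q : G ⧸ U), (g • q).out⁻¹ * g * q.out ∈ U := fun g q => by
    rw [mul_assoc, ← QuotientGroup.eq, QuotientGroup.out_eq', ← smul_eq_mul,
      MulAction.Quotient.coe_smul_out]
  have mul : ∀ (g h : G) (q : G ⧸ U), φ ⟨_, mem (g * h) q⟩ =
      φ ⟨_, mem g (h • q)⟩ * φ ⟨_, mem h q⟩ := fun g h q => by
    rw [← map_mul]
    congr 1
    apply Subtype.ext
    simp only [coe_mul, mul_smul]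
    group
  refine ⟨MonoidHom.mk' (fun g => ∏ q : G ⧸ U, φ ⟨_, mem g q⟩) fun g h => by
    simp only [mul, Finset.prod_mul_distrib]
    congr 1
    exact Fintype.prod_equiv (MulAction.toPerm h) _ _ fun _ => rfl, ?_⟩
  have fix : ∀ q : G ⧸ U, q.out⁻¹ * s * q.out ∈ U → s • q = q := fun q h => by
    rw [← MulAction.Quotient.coe_smul_out, ← QuotientGroup.out_eq' q, eq_comm, QuotientGroup.eq,
      QuotientGroup.out_eq', smul_eq_mul, ← mul_assoc]
    exact h
  have cs : ∀ {g}, g ∈ centralizer ({s} : Set G) ↔ g⁻¹ * s * g = s := by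
    intro g
    rw [mem_centralizer_singleton_iff, mul_assoc, inv_mul_eq_iff_eq_mul, eq_comm]
  have ss : ∀ q : G ⧸ U, s • s • q = q := fun q => by rw [← mul_smul, hs, one_smul]
  have hc : (Finset.univ.filter fun q : G ⧸ U => q.out ∈ centralizer {s}).card =
      U.relIndex (centralizer {s}) := by
    rw [← Nat.subtype_card (p := fun q : G ⧸ U => q.out ∈ centralizer {s}) _ (by simp)]
    refine Nat.card_congr (Equiv.ofBijective (fun q => ((⟨q.1.out, q.2⟩ : centralizer {s}) :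
      centralizer {s} ⧸ U.subgroupOf (centralizer {s}))) ⟨fun p q e => Subtype.ext ?_, fun c => ?_⟩)
    · rw [← QuotientGroup.out_eq' p.1, ← QuotientGroup.out_eq' q.1]
      exact QuotientGroup.eq.mpr (QuotientGroup.eq.mp e :)
    · obtain ⟨g, rfl⟩ := QuotientGroup.mk_surjective c
      obtain ⟨u, hu⟩ := QuotientGroup.mk_out_eq_mul U (g : G)
      refine ⟨⟨(g : G), hu ▸ mul_mem g.2 (hU u.2)⟩, QuotientGroup.eq.mpr ?_⟩
      change ((g : G) : G ⧸ U).out⁻¹ * g ∈ U
      rw [hu]; simp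
  change ∏ q : G ⧸ U, φ ⟨_, mem s q⟩ = _
  rw [← Finset.prod_filter_mul_prod_filter_not _ (fun q => q.out ∈ centralizer {s}),
    Finset.prod_involution (s := Finset.univ.filter fun q : G ⧸ U => q.out ∉ centralizer {s})
      (fun q _ => s • q), mul_one, Finset.prod_congr rfl (g := fun _ => φ ⟨s, sU⟩),
    Finset.prod_const, hc, pow_eq_pow_mod _ (show φ ⟨s, sU⟩ ^ 2 = 1 by
      rw [pow_two, ← map_mul, ← map_one φ]; exact congrArg φ (Subtype.ext hs)), hodd, pow_one]
  · intro q hq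
    have h1 := cs.mp (Finset.mem_filter.mp hq).2
    exact congrArg φ (Subtype.ext (by simp only [fix q (h1.symm ▸ sU), h1]))
  · intro q _
    rw [mul_comm, ← mul, ← map_one φ]
    exact congrArg φ (Subtype.ext (by simp [hs]))
  · intro q hq h4 h5
    have h6 := mem s q
    rw [h5] at h6
    refine (h _ h6).elim (fun e => h4 ?_) fun e => (Finset.mem_filter.mp hq).2 (cs.mpr e)
    rw [← e]
    exact congrArg φ (Subtype.ext (by simp only [h5]))
  · intro q hq
    simp only [Finset.mem_filter, Finset.mem_univ, true_and] at hq ⊢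
    exact fun h4 => hq ((mul_mem_cancel_left (mul_mem (inv_mem h4) (hU sU))).mp (hU (mem s q)))
  · exact fun q _ => ss q

omit [Finite G] in
theorem map_conj_eq (φ : U →* A) {g x : G} (hg : g ∈ U) (hx : x ∈ U) (h : g * x * g⁻¹ ∈ U) :
    φ ⟨_, h⟩ = φ ⟨x, hx⟩ := by
  rw [show (⟨_, h⟩ : U) = ⟨g, hg⟩ * ⟨x, hx⟩ * ⟨g, hg⟩⁻¹ from rfl, map_mul, map_mul, map_inv,
    mul_inv_cancel_comm]

/-- A group with an action of `S₃` with very few fixed points has a unique involution. -/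
theorem unique_inv_of_sym3 {K : Subgroup G} {s t j w : G} (sK : s ∈ K) (ss : s * s = 1) (s1 : s ≠ 1)
    (hs : ∀ k ∈ K, k * s = s * k) (tt : t * t = 1) (j3 : j ^ 3 = 1) (tj : t * j * t⁻¹ = j⁻¹)
    (js : j * s = s * j) (ht : ∀ k ∈ K, t * k * t⁻¹ ∈ K) (hj : ∀ k ∈ K, j * k * j⁻¹ ∈ K)
    (ct : ∀ k ∈ K, t * k = k * t → k = 1 ∨ k = s) (cj : ∀ k ∈ K, j * k = k * j → k = 1 ∨ k = s)
    (wK : w ∈ K) (ww : w * w = 1) : w = 1 ∨ w = s := by
  classical
  have := Fintype.ofFinite G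
  by_contra! hw
  have jj : j * j = j⁻¹ := by rw [eq_inv_iff_mul_eq_one, ← pow_three', j3]
  have hj' : ∀ k ∈ K, j⁻¹ * k * j ∈ K := fun k hk => by
    have := hj _ (hj k hk)
    rwa [show j * (j * k * j⁻¹) * j⁻¹ = j * j * k * (j * j)⁻¹ by group, jj, inv_inv] at this
  let I := fun τ : G => Finset.univ.filter fun k => k ∈ K ∧ τ * k * τ⁻¹ = k⁻¹ ∧ k ≠ 1 ∧ k ≠ s
  let T := Finset.univ.filter (· ∈ K)
  have h1 : ∀ τ, τ * τ = 1 → (∀ k ∈ K, τ * k * τ⁻¹ ∈ K) → (∀ k ∈ K, τ * k = k * τ → k = 1 ∨ k = s) →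
      T.card ≤ 2 * ((I τ).card + 2) := fun τ h1 h2 h3 => by
    refine (Finset.card_le_mul_card_image_of_maps_to (t := insert 1 (insert s (I τ)))
      (f := fun k => k⁻¹ * (τ * k * τ⁻¹)) (fun k hk => ?_) 2 fun b _ => ?_).trans
      (Nat.mul_le_mul_left 2 ((Finset.card_insert_le _ _).trans
        (Nat.succ_le_succ (Finset.card_insert_le _ _))))
    · have hk' := (Finset.mem_filter.mp hk).2
      simp only [Finset.mem_insert, I, Finset.mem_filter, Finset.mem_univ, true_and]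
      by_contra! hn
      refine hn.2.1 (hn.2.2 (mul_mem (inv_mem hk') (h2 k hk')) ?_ hn.1)
      calc _ = τ * k⁻¹ * τ⁻¹ * ((τ * τ) * k * (τ * τ)⁻¹) := by group
        _ = _ := by rw [h1]; group
    · rcases Finset.eq_empty_or_nonempty (T.filter fun k => k⁻¹ * (τ * k * τ⁻¹) = b) with e | ⟨a, ha⟩
      · simp [e]
      refine (Finset.card_le_card (t := {a, s * a}) fun k hk => ?_).trans Finset.card_le_two
      simp only [T, Finset.mem_filter, Finset.mem_univ, true_and] at ha hk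
      have := h3 _ (mul_mem hk.1 (inv_mem ha.1)) (by
        calc _ = k * (k⁻¹ * (τ * k * τ⁻¹)) * τ * a⁻¹ := by group
          _ = _ := by rw [hk.2, ← ha.2]; group)
      simpa [mul_inv_eq_iff_eq_mul] using this
  have ct1 : ∀ k ∈ K, j * t * j⁻¹ * k = k * (j * t * j⁻¹) → k = 1 ∨ k = s := fun k hk e => by
    refine (ct _ (hj' k hk) ?_).imp (fun e => by simpa using conj_eq_one_iff (a := j⁻¹).mp (by
      simpa using e)) fun e => ?_
    · calc _ = j⁻¹ * (j * t * j⁻¹ * k) * j := by group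
        _ = _ := by rw [e]; group
    · calc k = j * (j⁻¹ * k * j) * j⁻¹ := by group
        _ = s := by rw [e, js]; group
  have ct2 : ∀ k ∈ K, j⁻¹ * t * j * k = k * (j⁻¹ * t * j) → k = 1 ∨ k = s := fun k hk e => by
    refine (ct _ (hj k hk) ?_).imp conj_eq_one_iff.mp fun e => ?_
    · calc _ = j * (j⁻¹ * t * j * k) * j⁻¹ := by group
        _ = _ := by rw [e]; group
    · calc k = j⁻¹ * (j * k * j⁻¹) * j := by group
        _ = s := by rw [e, mul_assoc, ← js]; group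
  have a0 := h1 t tt ht ct
  have a1 := h1 (j * t * j⁻¹) (by rw [conj_mul, tt]; group) (fun k hk => by
    simpa [mul_assoc] using hj _ (ht _ (hj' k hk))) ct1
  have a2 := h1 (j⁻¹ * t * j) (by
    calc _ = j⁻¹ * (t * t) * j := by group
      _ = 1 := by rw [tt]; group)
    (fun k hk => by simpa [mul_assoc] using hj' _ (ht _ (hj k hk))) ct2
  have ti : t⁻¹ = t := inv_eq_of_mul_eq_one_right tt
  have tj1 : t * j = j⁻¹ * t := by rw [← tj]; group
  have tj2 : t * j⁻¹ = j * t := by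
    rw [← inv_inj, mul_inv_rev, mul_inv_rev, ti, inv_inv, eq_comm, ← mul_left_inj j, ← mul_right_inj t]
    calc t * (t * j⁻¹ * j) = 1 := by rw [inv_mul_cancel_right, tt]
      _ = t * (j * (j⁻¹ * t)) := by rw [mul_inv_cancel_left, tt]
      _ = _ := by rw [← tj1]; group
  have dj : ∀ {σ τ}, (σ⁻¹ * τ = j ∨ σ⁻¹ * τ = j⁻¹) → Disjoint (I σ) (I τ) := fun {σ τ} e =>
    Finset.disjoint_left.mpr fun k h1 h2 => by
      simp only [I, Finset.mem_filter, Finset.mem_univ, true_and] at h1 h2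
      have h3 : σ⁻¹ * τ * k = k * (σ⁻¹ * τ) := by
        calc _ = σ⁻¹ * (τ * k * τ⁻¹) * τ := by group
          _ = _ := by rw [h2.2.1, ← h1.2.1]; group
      rcases e with e | e <;> rw [e] at h3
      · exact (cj k h1.1 h3).elim h1.2.2.1 h1.2.2.2
      · exact (cj k h1.1 (Commute.inv_left_iff.mp h3)).elim h1.2.2.1 h1.2.2.2
  have w1 : j * w * j⁻¹ ≠ w := fun e => (cj w wK (mul_inv_eq_iff_eq_mul.mp e)).elim hw.1 hw.2
  have w2 : j * w * j⁻¹ ≠ s * w := fun e => w1 (by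
    have h2 : j⁻¹ * w * j⁻¹⁻¹ = w := by
      calc _ = j * j * w * (j * j)⁻¹ := by rw [jj]
        _ = j * (j * w * j⁻¹) * j⁻¹ := by group
        _ = s * (j * w * j⁻¹) := by rw [e, ← mul_assoc, js, mul_assoc, mul_assoc, ← mul_assoc j, e]
        _ = w := by rw [e, ← mul_assoc, ss, one_mul]
    nth_rewrite 1 [← h2]
    group)
  have w3 : j * w * j⁻¹ ≠ 1 := fun e => hw.1 (conj_eq_one_iff.mp e)
  have w4 : j * w * j⁻¹ ≠ s := fun e => hw.2 (by
    calc w = j⁻¹ * (j * w * j⁻¹) * j := by group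
      _ = s := by rw [e, mul_assoc, ← js]; group)
  have w5 : s * w ≠ 1 := fun e => hw.2 (by rw [← mul_right_inj s, e, ss])
  have w6 : s * w ≠ s := fun e => hw.1 (by simpa using e)
  have w7 : s * w ≠ w := fun e => s1 (by simpa using e)
  let B : Finset G := {1, s, w, s * w, j * w * j⁻¹}
  have cB : B.card = 5 := by
    rw [Finset.card_insert_of_notMem (by simp [s1.symm, hw.1.symm, w5.symm, w3.symm]),
      Finset.card_insert_of_notMem (by simp [hw.1, hw.2.symm, w4.symm]),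
      Finset.card_insert_of_notMem (by simp [s1, w1.symm]), Finset.card_pair w2.symm]
  have hB : ∀ b ∈ B, b ∈ K ∧ b⁻¹ = b := by
    simp only [B, Finset.mem_insert, Finset.mem_singleton]
    rintro b (rfl | rfl | rfl | rfl | rfl)
    · simp
    · exact ⟨sK, inv_eq_of_mul_eq_one_right ss⟩
    · exact ⟨wK, inv_eq_of_mul_eq_one_right ww⟩
    · exact ⟨mul_mem sK wK, inv_eq_of_mul_eq_one_right (by
        rw [mul_assoc, ← mul_assoc w, hs w wK, mul_assoc, ww, mul_one, ss])⟩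
    · exact ⟨hj w wK, inv_eq_of_mul_eq_one_right (by rw [conj_mul, ww]; group)⟩
  have dB : ∀ {τ}, (∀ k ∈ K, τ * k = k * τ → k = 1 ∨ k = s) → Disjoint B (I τ) := fun h =>
    Finset.disjoint_left.mpr fun k h1 h2 => by
      simp only [I, Finset.mem_filter, Finset.mem_univ, true_and, (hB k h1).2] at h2
      exact (h k h2.1 (mul_inv_eq_iff_eq_mul.mp h2.2.1)).elim h2.2.2.1 h2.2.2.2
  have h3 := Finset.card_le_card (s := B ∪ (I t ∪ (I (j * t * j⁻¹) ∪ I (j⁻¹ * t * j)))) (t := T)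
    fun k hk => by
      simp only [I, T, Finset.mem_union, Finset.mem_filter, Finset.mem_univ, true_and] at hk ⊢
      exact hk.elim (fun e => (hB k e).1) fun e => by tauto
  rw [Finset.card_union_of_disjoint (by simp [dB ct, dB ct1, dB ct2]), Finset.card_union_of_disjoint
    (Finset.disjoint_union_right.mpr ⟨dj (Or.inl ?_), dj (Or.inr ?_)⟩),
    Finset.card_union_of_disjoint (dj (Or.inl ?_))] at h3
  · omega
  · calc _ = j * (t⁻¹ * (j * j)⁻¹) * t * j := by group
      _ = j * j⁻¹ * (t * t) * j := by rw [ti, jj, inv_inv, tj1]; group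
      _ = _ := by rw [tt]; group
  · rw [ti, ← mul_assoc, ← mul_assoc, tj1, mul_assoc j⁻¹, tt, mul_one, ← mul_inv_rev, jj, inv_inv]
  · rw [ti, ← mul_assoc, ← mul_assoc, tj2, mul_assoc j, tt, mul_one, jj]

end Cfsg.Agent.Char
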